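import Cfsg.Agent.H579.RR.Over
import Cfsg.Agent.H619.R4.Red
import Cfsg.Agent.H672.Over
import Cfsg.Agent.H700.PRat
import Cfsg.Agent.H700.PRatExt
import Cfsg.Agent.S0862
import Cfsg.Agent.S0866
import Cfsg.Agent.S1489

/-!
# Real characters over a real character of odd degree of a perfect normal subgroup (S4554, helper579)

* `exists_real_ext` : the canonical extension for a quotient of 2-power order is real;
* `exists_real_over_odd` : `N` normal and perfect, `θ ∈ Irr(N)` real of odd degree: a real `χ ∈ Irr(G)` lies over `θ`.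
-/

set_option autoImplicit false

namespace Cfsg.Agent.H579.RR

open Cfsg Cfsg.Agent.Characters Cfsg.Agent.H619.R4 Cfsg.Agent.H686.CharKit
open Cfsg.Agent.H672 (Over inertia over_iff over_comp_iff over_subtype_iff mem_inertia_iff le_inertia)
open scoped ComplexConjugate

universe u

variable {G : Type u} [Group G]

theorem detChar_eq_one {N : Type*} [Group N] [Finite N] (hperf : commutator N = ⊤) {θ : N → ℂ}
    (hθ : IsIrrCharacter N θ) (n : N) : detChar θ n = 1 := by
  obtain ⟨δ, hδ⟩ := CharactersDeep.ExtUnique.exists_hom_detChar hθ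
  have h1 : n ∈ δ.ker := by
    have h2 : commutator N ≤ δ.ker := Abelianization.commutator_subset_ker δ
    exact h2 (by rw [hperf]; exact Subgroup.mem_top n)
  rw [hδ, MonoidHom.mem_ker.1 h1, Units.val_one]

/-- **The canonical extension is real.** -/
theorem exists_real_ext [Finite G] (N : Subgroup G) [hN : N.Normal] (hperf : commutator N = ⊤) {θ : N → ℂ}
    (hθ : IsIrrCharacter N θ) (hreal : ∀ n, (θ n).im = 0) (hodd : Odd (charDegree θ)) {k : ℕ}
    (h2 : N.index = 2 ^ k)
    (hinv : ∀ (g : G) (n : N), θ ⟨g * n * g⁻¹, hN.conj_mem (n : G) n.2 g⟩ = θ n) :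
    ∃ χ : IrrCharacter G, (∀ g, ((χ : G → ℂ) g).im = 0) ∧ ∀ n : N, (χ : G → ℂ) n = θ n := by
  have hd : θ 1 = ((charDegree θ : ℕ) : ℂ) := (H672.coe_charDegree hθ).symm
  have hcop : Nat.Coprime N.index (charDegree θ) := by
    rw [h2]
    exact Nat.Coprime.pow_left _ (Nat.coprime_two_left.2 hodd)
  have hone : Cfsg.IsCharacter G (fun _ => (1 : ℂ)) ∧ (fun _ : G => (1 : ℂ)) 1 = 1 :=
    ⟨Core.isIrr_isCharacter Core.isIrr_one, rfl⟩
  have hdet : ∀ n : N, (fun _ : G => (1 : ℂ)) n = Cfsg.detChar θ n := fun n => (detChar_eq_one hperf hθ n).symm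
  have hext := (Cfsg.Agent.S0866.result N θ hθ hinv _ hd hcop).2 ⟨fun _ => 1, hone.1, hone.2, hdet⟩
  obtain ⟨χ, ⟨h3, h4, h5⟩, huniq⟩ := Cfsg.Agent.S0862.result N θ hθ _ hd hcop hext (fun _ => 1) hone hdet
  refine ⟨⟨χ, h3⟩, ?_, h4⟩
  have h6 := huniq (fun g => conj (χ g)) ⟨Core.isIrr_conj h3, fun n => by
    show conj (χ n) = θ n
    rw [h4]
    exact Complex.conj_eq_iff_im.2 (hreal n), by
    funext g
    have h7 := H700.PRat.detChar_map (Complex.conjAe.toRingEquiv) h3 g
    have h8 : (fun x => Complex.conjAe.toRingEquiv (χ x)) = fun g => conj (χ g) := rfl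
    rw [h8, h5] at h7
    rw [h7]
    exact map_one _⟩
  intro g
  exact Complex.conj_eq_iff_im.1 (congrFun h6 g)

/-- pulling back a character to `N.subgroupOf R` -/
noncomputable def up (N : Subgroup G) (θ : N → ℂ) (R : Subgroup G) : N.subgroupOf R → ℂ :=
  fun x => θ ⟨((x : R) : G), Subgroup.mem_subgroupOf.1 x.2⟩

theorem isIrr_up (N : Subgroup G) {θ : N → ℂ} (hθ : IsIrrCharacter N θ) {R : Subgroup G} (hNR : N ≤ R) :
    IsIrrCharacter (N.subgroupOf R) (up N θ R) :=
  Core.isIrr_comp (Subgroup.subgroupOfEquivOfLe hNR : N.subgroupOf R →* N)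
    (Subgroup.subgroupOfEquivOfLe hNR).surjective hθ

theorem perfect_subgroupOf {N R : Subgroup G} (hNR : N ≤ R) (hperf : commutator N = ⊤) :
    commutator (N.subgroupOf R) = ⊤ := by
  have e := (Subgroup.subgroupOfEquivOfLe hNR).symm
  rw [commutator_def] at hperf ⊢
  have h1 : (⊤ : Subgroup (N.subgroupOf R)) = (⊤ : Subgroup N).map e.toMonoidHom :=
    (Subgroup.map_top_of_surjective _ e.surjective).symm
  rw [h1, ← Subgroup.map_commutator, hperf]

/-- `Over` from `R` to `N`. -/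
theorem over_of_over [Finite G] {N R : Subgroup G} (hNR : N ≤ R) {θ : N → ℂ} (hθ : IsIrrCharacter N θ)
    {χ : G → ℂ} (hχ : IsCharacter G χ) {ψ : R → ℂ} (hψ : IsIrrCharacter R ψ) (h1 : Over R.subtype χ ψ)
    (h2 : Over (Subgroup.inclusion hNR) ψ θ) : Over N.subtype χ θ := by
  have h3 := (over_comp_iff R.subtype (Subgroup.inclusion hNR) hχ hθ).2 ⟨ψ, hψ, h1, h2⟩
  exact h3

theorem over_subtype_of_inclusion [Finite G] {N R : Subgroup G} (hNR : N ≤ R) (θ : N → ℂ) (ψ : R → ℂ) :
    Over (N.subgroupOf R).subtype ψ (up N θ R) ↔ Over (Subgroup.inclusion hNR) ψ θ := by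
  have h1 := H672.over_comp_equiv (Subgroup.inclusion hNR) (Subgroup.subgroupOfEquivOfLe hNR) ψ θ
  exact h1

/-- A constituent of an induced character lies over the character. -/
theorem over_of_indFun [Fintype G] (R : Subgroup G) [Fintype R] {ψ : R → ℂ} {χ : G → ℂ} (hχ : IsIrrCharacter G χ)
    (h : classInner (indFun R ψ) χ ≠ 0) : Over R.subtype χ ψ := by
  rw [over_subtype_iff]
  have h3 := CharactersDeep.NormalInd.classInner_indFun R ψ χ (Core.isIrr_isClassFunction hχ)
  rw [h3] at h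
  intro h4
  apply h
  rw [← Core.classInner_conj_symm, h4, map_zero]

/-- the invariant case -/
theorem exists_real_over_of_inv [Finite G] (N : Subgroup G) [hN : N.Normal] (hperf : commutator N = ⊤) {θ : N → ℂ}
    (hθ : IsIrrCharacter N θ) (hreal : ∀ n, (θ n).im = 0) (hodd : Odd (charDegree θ))
    (hinv : ∀ (g : G) (n : N), θ ⟨g * n * g⁻¹, hN.conj_mem (n : G) n.2 g⟩ = θ n) :
    ∃ χ : IrrCharacter G, (∀ g, ((χ : G → ℂ) g).im = 0) ∧ Odd (charDegree (χ : G → ℂ)) ∧
      Over N.subtype (χ : G → ℂ) θ := by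
  classical
  have := Fintype.ofFinite G
  have : Fact (Nat.Prime 2) := ⟨Nat.prime_two⟩
  obtain ⟨P⟩ : Nonempty (Sylow 2 G) := inferInstance
  obtain ⟨k, hk⟩ := H700.PRatExt.relIndex_sup_pow N (P : Subgroup G) P.2
  set R := N ⊔ (P : Subgroup G) with hR
  have hNR : N ≤ R := le_sup_left
  have hPR : (P : Subgroup G) ≤ R := le_sup_right
  have := Fintype.ofFinite R
  have hRodd : Odd R.index := by
    rw [← Nat.not_even_iff_odd, even_iff_two_dvd]
    intro h
    exact P.not_dvd_index (h.trans (Subgroup.index_dvd_of_le hPR))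
  have hN' : (N.subgroupOf R).Normal := inferInstance
  have hdeg : charDegree (up N θ R) = charDegree θ := by
    have h1 : up N θ R 1 = θ 1 := rfl
    apply H672.charDegree_of_eq
    rw [h1, H672.coe_charDegree hθ]
  obtain ⟨ψ, hψr, hψ⟩ := exists_real_ext (N.subgroupOf R) (perfect_subgroupOf hNR hperf)
    (isIrr_up N hθ hNR) (fun x => hreal _) (by rw [hdeg]; exact hodd) hk
    (fun g n => hinv (g : G) ⟨((n : R) : G), Subgroup.mem_subgroupOf.1 n.2⟩)
  have hψd : charDegree (ψ : R → ℂ) = charDegree θ := by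
    have h1 := hψ 1
    rw [Subgroup.coe_one] at h1
    apply H672.charDegree_of_eq
    rw [h1, ← hdeg]
    exact (H672.coe_charDegree (isIrr_up N hθ hNR)).symm
  have hchar : IsCharacter G (indFun R (ψ : R → ℂ)) :=
    CharactersDeep.IndFun.isCharacter_indFun R (Core.isIrr_isCharacter ψ.2)
  obtain ⟨χ, hχr, hχo, m, hm, hmc⟩ := exists_real_odd (Λ := indFun R (ψ : R → ℂ))
    ⟨_, 0, hchar, Core.isCharacter_zero, by rw [sub_zero]⟩ (real_indFun _ _ hψr)
    ⟨((R.index * charDegree θ : ℕ) : ℤ), by exact_mod_cast hRodd.mul hodd, by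
      rw [H612.Heredity.indFun_one R, ← charDegree_irr, hψd]
      push_cast
      ring⟩
  refine ⟨χ, hχr, hχo, ?_⟩
  have h1 : Over R.subtype (χ : G → ℂ) (ψ : R → ℂ) := by
    apply over_of_indFun R χ.2
    rw [hmc]
    intro h0
    have h2 : m = 0 := by exact_mod_cast h0
    rw [h2] at hm
    exact absurd hm (by decide)
  refine over_of_over hNR hθ (Core.isIrr_isCharacter χ.2) ψ.2 h1 ?_
  rw [← over_subtype_of_inclusion hNR]
  have := Fintype.ofFinite (N.subgroupOf R)
  rw [over_subtype_iff]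
  have h2 : (fun h : N.subgroupOf R => (ψ : R → ℂ) h) = up N θ R := funext hψ
  rw [h2, Core.classInner_irr_self (isIrr_up N hθ hNR)]
  exact one_ne_zero

/-- **A real character lies over every real character of odd degree of a perfect normal subgroup.** -/
theorem exists_real_over_odd [Finite G] (N : Subgroup G) [hN : N.Normal] (hperf : commutator N = ⊤) {θ : N → ℂ}
    (hθ : IsIrrCharacter N θ) (hreal : ∀ n, (θ n).im = 0) (hodd : Odd (charDegree θ)) :
    ∃ χ : IrrCharacter G, (∀ g, ((χ : G → ℂ) g).im = 0) ∧ Over N.subtype (χ : G → ℂ) θ := by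
  classical
  have := Fintype.ofFinite G
  have := Fintype.ofFinite N
  set T := inertia N θ with hTd
  have hT : ∀ g : G, g ∈ T ↔ ∀ n : N, θ ⟨g * n * g⁻¹, hN.conj_mem (n : G) n.2 g⟩ = θ n := fun g => mem_inertia_iff
  have hNT : N ≤ T := le_inertia (Core.isIrr_isClassFunction hθ)
  have := Fintype.ofFinite T
  have hN' : (N.subgroupOf T).Normal := inferInstance
  have hdeg : charDegree (up N θ T) = charDegree θ := by
    have h1 : up N θ T 1 = θ 1 := rfl
    apply H672.charDegree_of_eq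
    rw [h1, H672.coe_charDegree hθ]
  obtain ⟨ψ, hψr, -, hψ⟩ := exists_real_over_of_inv (N.subgroupOf T) (perfect_subgroupOf hNT hperf)
    (isIrr_up N hθ hNT) (fun x => hreal _) (by rw [hdeg]; exact hodd)
    (fun g n => (hT g).1 g.2 ⟨((n : T) : G), Subgroup.mem_subgroupOf.1 n.2⟩)
  have := Fintype.ofFinite (N.subgroupOf T)
  have hc : classInner (indFun (N.subgroupOf T) (fun x => θ ⟨(x : T), Subgroup.mem_subgroupOf.mp x.2⟩))
      (ψ : T → ℂ) ≠ 0 := by
    rw [CharactersDeep.NormalInd.classInner_indFun (N.subgroupOf T) _ (ψ : T → ℂ) (Core.isIrr_isClassFunction ψ.2),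
      ← Core.classInner_conj_symm]
    intro h0
    rw [map_eq_zero] at h0
    exact (over_subtype_iff (N.subgroupOf T) _ _).1 hψ h0
  obtain ⟨hirr, -⟩ := Cfsg.Agent.S1489.result N T θ hθ hT hNT (ψ : T → ℂ) (ψ : T → ℂ) ψ.2 ψ.2 hc hc
  refine ⟨⟨_, hirr⟩, real_indFun _ _ hψr, ?_⟩
  refine over_of_over hNT hθ (Core.isIrr_isCharacter hirr) ψ.2 ?_ ((over_subtype_of_inclusion hNT θ _).1 hψ)
  apply over_of_indFun T hirr
  rw [Core.classInner_irr_self hirr]
  exact one_ne_zero

end Cfsg.Agent.H579.RR
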