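import Cfsg.Agent.H619.R4.Parity
import Cfsg.Agent.H696.OddIndex
import Cfsg.Agent.H597.Degrees

/-!
# Real characters over a real character of a normal subgroup (S4554, helper579)

* `exists_real_of_odd_stab` : `φ ∈ Irr(N)` real, `|I_G(φ) : N|` odd: a real `χ ∈ Irr(G)` lies over `φ`.
-/

set_option autoImplicit false

namespace Cfsg.Agent.H579.RR

open Cfsg Cfsg.Agent.Characters Cfsg.Agent.H619.R4 Cfsg.Agent.H686.CharKit
open Cfsg.Agent.H696.OddIndex (mult stab mult_nat sum_mult_sq)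
open scoped ComplexConjugate

universe u

variable {G : Type u} [Group G]

theorem mult_cbar [Finite G] (N : Subgroup G) [Fintype N] {φ : N → ℂ} (hreal : ∀ n, (φ n).im = 0)
    (χ : IrrCharacter G) : mult N (cbar χ : G → ℂ) φ = conj (mult N (χ : G → ℂ) φ) := by
  unfold mult
  rw [Core.classInner_def, Core.classInner_def, map_mul, map_inv₀, Complex.conj_natCast, map_sum]
  congr 1
  refine Finset.sum_congr rfl fun n _ => ?_
  rw [cbar_apply, map_mul, Complex.conj_eq_iff_im.2 (hreal n), Complex.conj_eq_iff_im.2 (hreal n)]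

theorem exists_real_of_odd_stab [Finite G] (N : Subgroup G) [hN : N.Normal] [Fintype N] {φ : N → ℂ}
    (hφ : IsIrrCharacter N φ) (hreal : ∀ n, (φ n).im = 0) (T : Subgroup G)
    (hT : ∀ g, g ∈ T ↔ ∀ n : N, φ ⟨g * n * g⁻¹, hN.conj_mem n n.2 g⟩ = φ n) (hodd : Odd (N.relIndex T)) :
    ∃ χ : IrrCharacter G, (∀ g, ((χ : G → ℂ) g).im = 0) ∧ mult N (χ : G → ℂ) φ ≠ 0 := by
  classical
  have := Fintype.ofFinite G
  have hfin := Core.finite_irr (G := G)
  have := Fintype.ofFinite (IrrCharacter G)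
  choose m hm using fun χ : IrrCharacter G => mult_nat N χ.2 hφ
  have hNT : N ≤ T := by
    intro x hx
    rw [hT]
    intro n
    exact Core.isIrr_isClassFunction hφ n ⟨x, hx⟩
  have h1 : stab N φ = Nat.card T := by
    unfold stab
    exact Nat.card_congr (Equiv.subtypeEquivRight fun g => (hT g).symm)
  have h2 := sum_mult_sq N hφ
  have h3 : Nat.card N * ∑ χ : IrrCharacter G, m χ ^ 2 = Nat.card T := by
    rw [h1] at h2
    have h4 : ∑ χ : IrrCharacter G, mult N (χ : G → ℂ) φ ^ 2 = ((∑ χ : IrrCharacter G, m χ ^ 2 : ℕ) : ℂ) := by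
      push_cast
      exact Finset.sum_congr rfl fun χ _ => by rw [hm]
    rw [h4] at h2
    exact_mod_cast h2
  have h4 : ∑ χ : IrrCharacter G, m χ ^ 2 = N.relIndex T := by
    have h5 : Nat.card N * N.relIndex T = Nat.card T := by
      have := (N.subgroupOf T).card_mul_index
      rw [Nat.card_congr (Subgroup.subgroupOfEquivOfLe hNT).toEquiv] at this
      exact this
    exact Nat.eq_of_mul_eq_mul_left Nat.card_pos (h3.trans h5.symm)
  have hmc : ∀ χ, m (cbar χ) = m χ := by
    intro χ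
    have h5 := mult_cbar N hreal χ
    rw [hm, hm, Complex.conj_natCast] at h5
    exact_mod_cast h5
  have h5 : (∑ χ : IrrCharacter G, ((m χ ^ 2 : ℕ) : ZMod 2)) = 1 := by
    rw [← Nat.cast_sum, h4]
    exact (ZMod.natCast_eq_one_iff_odd).2 hodd
  rw [Cfsg.Agent.H611.EvenFixed.sum_eq_sum_fixed Finset.univ cbar (fun χ _ => cbar_cbar χ)
    (fun χ _ => Finset.mem_univ _) _ (fun χ _ => by rw [hmc])] at h5
  obtain ⟨χ, hχ, hne⟩ := Finset.exists_ne_zero_of_sum_ne_zero (by rw [h5]; exact one_ne_zero)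
  rw [Finset.mem_filter] at hχ
  refine ⟨χ, (cbar_eq_iff χ).1 hχ.2, ?_⟩
  rw [hm]
  intro h0
  apply hne
  have h6 : m χ = 0 := by exact_mod_cast h0
  rw [h6]
  simp

end Cfsg.Agent.H579.RR
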