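import Cfsg.Agent.H579.RR.Psl2Real

/-!
# Real characters of degree `q ± 1` of `PSL₂(F)` with small inertia groups (S4554, helper579)

The characters of `H597.L2Char.exists_R`, `exists_X` are real.
-/

set_option autoImplicit false
set_option linter.unusedSectionVars false

namespace Cfsg.Agent.H579.RR

open Matrix Cfsg Cfsg.Agent.Characters.Core Cfsg.Agent.H984.SLTwo Cfsg.Agent.H597.L2Char
open Cfsg.Agent.Blocks.Basic (charDegree_of_eq irr_one_eq_charDegree charDegree_pos)
open Cfsg.Agent.ClassicalGeometry.AutPSL.Root (pr pr_surjective pr_eq_one_iff)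
open Cfsg.Agent.ClassicalGeometry.AutPSL.Auto (cj fld lift lift_pr coe_cj coe_fld_apply)

variable {F : Type*} [Field F] [Fintype F]

local notation "PSL" => Matrix.ProjectiveSpecialLinearGroup (Fin 2) F
local notation "SL" => Matrix.SpecialLinearGroup (Fin 2) F
local notation "M₂" => Matrix (Fin 2) (Fin 2) F

/-- A character of degree `q + 1` with small inertia group. -/
theorem exists_R_real {p : ℕ} [Fact p.Prime] [CharP F p] {m : ℕ} (hm : 2 < m)
    (hq : Fintype.card F = 2 * m + 1) : ∃ θ : PSL → ℂ, IsIrrCharacter PSL θ ∧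
      charDegree θ = 2 * m + 2 ∧ (∀ s, (θ s).im = 0) ∧ ∀ (A : GL (Fin 2) F) (σ : F ≃+* F) (i : ℕ),
        (∀ a, σ a = a ^ p ^ i) → (∀ s, θ ((lift (cj A * fld σ) : MulAut PSL) s) = θ s) →
          m ∣ p ^ i - 1 ∨ m ∣ p ^ i + 1 := by
  classical
  have hcardu : Nat.card Fˣ = 2 * m := by
    rw [Nat.card_units, Nat.card_eq_fintype_card, hq]; omega
  obtain ⟨θ, γ, hγ, h3, h4⟩ := exists_hom (C := Fˣ) (m := m) (by omega) hcardu (z := -1) (by simp)
  set α : MulChar F ℂ := MulChar.ofUnitHom θ with hα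
  have hαu : ∀ a : Fˣ, α a = θ a := fun a => by rw [hα, MulChar.ofUnitHom_coe]
  have hne : ¬ α = α⁻¹ := by
    intro h
    have h5 : θ γ ^ 2 = 1 := by
      apply Units.ext
      have h5 : α γ = α⁻¹ γ := by rw [← h]
      rw [MulChar.inv_apply_eq_inv', hαu] at h5
      rw [sq]
      have h6 : (θ γ : ℂ) * θ γ = 1 := by
        nth_rw 2 [h5]
        exact mul_inv_cancel₀ (Units.ne_zero _)
      push_cast
      exact h6
    have h6 := Nat.le_of_dvd (by norm_num) (orderOf_dvd_of_pow_eq_one h5)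
    omega
  have hirr : IsIrrCharacter SL (R α) := by
    apply isIrr_of_classInner_self (isCharacter_R α)
    rw [classInner_R_R, if_pos rfl, if_neg hne, add_zero]
  have hα1 : α (-1) = 1 := by
    have := hαu (-1)
    rw [h3, Units.val_neg, Units.val_one] at this
    rw [this, Units.val_one]
  have hR1 : (R α : SL → ℂ) 1 = ((2 * m + 2 : ℕ) : ℂ) := by
    have h := R_upp_zero α (inv_one : (1 : Fˣ)⁻¹ = 1)
    rw [upp_one_zero, Units.val_one, map_one, hq, mul_one] at h
    rw [h]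
    push_cast
    ring
  have hRz : (R α : SL → ℂ) z0 = ((2 * m + 2 : ℕ) : ℂ) := by
    have h := R_upp_zero α (neg_one_inv (F := F))
    rw [Units.val_neg, Units.val_one, hα1, hq, mul_one] at h
    rw [show (z0 : SL) = upp (-1) 0 from rfl, h]
    push_cast
    ring
  obtain ⟨χ, hχ, hχR⟩ := exists_descent hirr (hRz.trans hR1.symm)
  refine ⟨χ, hχ, ?_, ?_, ?_⟩
  · apply charDegree_of_eq
    rw [← hR1, ← hχR 1, map_one]
  · refine im_of_inv hχ fun s => ?_
    obtain ⟨g, rfl⟩ := pr_surjective s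
    rw [← map_inv, hχR, hχR]
    exact real_of_upp (isIrr_isClassFunction hirr) (fun u hu b c hb hc => by
      rw [R_upp_ne α hu hb, R_upp_ne α hu hc]) g
  · intro A σ i hσ hinv
    have hp : 0 < p ^ i := pow_pos (Fact.out : p.Prime).pos _
    have hinvne : ∀ u : Fˣ, tr ((upp u 0 : SL) : M₂) ^ 2 ≠ 4 → u⁻¹ ≠ u := by
      intro u hu h
      apply hu
      rw [tr_upp h, mul_pow]
      have h5 : (u : F) * u = 1 := by
        have := mul_inv_cancel u
        rw [h] at this
        rw [← Units.val_mul, this, Units.val_one]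
      rw [sq (u : F), h5]
      norm_num
    have hγ1 : γ⁻¹ ≠ γ := by
      intro h
      have h5 : γ ^ 2 = 1 := by
        rw [sq]
        nth_rw 1 [← h]
        rw [inv_mul_cancel]
      have h6 : orderOf γ = 2 * m := by
        rw [← hcardu]
        exact orderOf_eq_card_of_forall_mem_zpowers hγ
      have h7 := Nat.le_of_dvd (by norm_num) (orderOf_dvd_of_pow_eq_one h5)
      omega
    have htr : tr ((upp γ 0 : SL) : M₂) ^ 2 ≠ 4 := by
      intro h
      unfold tr at h
      rw [coe_upp] at h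
      simp only [Matrix.of_apply, Matrix.cons_val', Matrix.cons_val_zero,
        Matrix.cons_val_one, Matrix.cons_val_fin_one] at h
      apply hγ1
      apply Units.ext
      have h5 : (γ : F) * ((γ⁻¹ : Fˣ) : F) = 1 := by rw [← Units.val_mul, mul_inv_cancel, Units.val_one]
      have h6 : (((γ⁻¹ : Fˣ) : F) - γ) ^ 2 = 0 := by linear_combination h - 4 * h5
      exact sub_eq_zero.1 (pow_eq_zero_iff (two_ne_zero)|>.1 h6)
    have hpow : (upp γ 0 : SL) ^ p ^ i = upp (γ ^ p ^ i) 0 := by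
      have hk : ∀ k : ℕ, (upp γ 0 : SL) ^ k = upp (γ ^ k) 0 := by
        intro k
        induction k with
        | zero => rw [pow_zero, pow_zero, upp_one_zero]
        | succ k ih =>
          rw [pow_succ, ih, pow_succ]
          apply Matrix.SpecialLinearGroup.ext
          intro i j
          rw [Matrix.SpecialLinearGroup.coe_mul, coe_upp, coe_upp, coe_upp]
          fin_cases i <;> fin_cases j <;> simp [Matrix.mul_apply, mul_comm]
      exact hk _
    have h6 := inv_pow hσ (isIrr_isClassFunction hχ) hinv htr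
    have h7 : (γ ^ p ^ i)⁻¹ ≠ γ ^ p ^ i := by
      apply hinvne
      rw [← hpow, tr_pow, ← hσ, ← map_pow, ← map_ofNat σ 4]
      exact fun h => htr (σ.injective h)
    rw [hχR, hχR, hpow, R_upp_split α h7, R_upp_split α hγ1, hαu, hαu, hαu, hαu, map_inv, map_inv,
      map_pow] at h6
    exact dvd_of_add_inv hp h4 h6

/-- A character of degree `q - 1` with small inertia group. -/
theorem exists_X_real {p : ℕ} [Fact p.Prime] [CharP F p] {m : ℕ} (hm : 2 ≤ m)
    (hq : Fintype.card F = 2 * m + 1) : ∃ θ : PSL → ℂ, IsIrrCharacter PSL θ ∧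
      charDegree θ = 2 * m ∧ (∀ s, (θ s).im = 0) ∧ ∀ (A : GL (Fin 2) F) (σ : F ≃+* F) (i : ℕ),
        (∀ a, σ a = a ^ p ^ i) → (∀ s, θ ((lift (cj A * fld σ) : MulAut PSL) s) = θ s) →
          m + 1 ∣ p ^ i - 1 ∨ m + 1 ∣ p ^ i + 1 := by
  classical
  have h2 : ringChar F ≠ 2 := ringChar_ne_two_of_odd (by rw [hq]; exact ⟨m, rfl⟩)
  obtain ⟨g, hg⟩ := exists_ell (F := F)
  have : IsCyclic (Subgroup.centralizer ({g} : Set SL)) := isCyclic_cent g hg
  have hcardC : Nat.card (Subgroup.centralizer ({g} : Set SL)) = 2 * (m + 1) := by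
    rw [card_cent_ell g hg, hq]; ring
  obtain ⟨θ, γ, hγ, h3, h4⟩ := exists_hom (C := Subgroup.centralizer ({g} : Set SL)) (m := m + 1)
    (by omega) hcardC (z := ⟨z0, z0_mem g⟩) (Subtype.ext z0_mul_self)
  have hone : (1 : MulChar F ℂ) (-1) = 1 := MulChar.one_apply (IsUnit.neg isUnit_one)
  have hpar : (1 : MulChar F ℂ) (-1) = (θ ⟨z0, z0_mem g⟩ : ℂ) := by
    rw [h3, Units.val_one]; exact hone
  have hθ2 : θ ^ 2 ≠ 1 := by
    intro h
    have h5 : θ γ ^ 2 = 1 := by
      rw [← MonoidHom.pow_apply, h, MonoidHom.one_apply]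
    have h6 := Nat.le_of_dvd (by norm_num) (orderOf_dvd_of_pow_eq_one h5)
    omega
  have hirr := isIrr_X h2 hg hpar hθ2
  have hX1 : (X θ (1 : MulChar F ℂ) : SL → ℂ) 1 = ((2 * m : ℕ) : ℂ) := by
    rw [X_one hg, hq]; push_cast; ring
  have hXz : (X θ (1 : MulChar F ℂ) : SL → ℂ) z0 = ((2 * m : ℕ) : ℂ) := by
    rw [X_z0 hg hpar, hone, hq]; push_cast; ring
  obtain ⟨χ, hχ, hχX⟩ := exists_descent hirr (hXz.trans hX1.symm)
  refine ⟨χ, hχ, ?_, ?_, ?_⟩
  · apply charDegree_of_eq
    rw [← hX1, ← hχX 1, map_one]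
  · refine im_of_inv hχ fun s => ?_
    obtain ⟨g, rfl⟩ := pr_surjective s
    rw [← map_inv, hχX, hχX]
    exact real_of_upp (isIrr_isClassFunction hirr) (fun u hu b c hb hc => by
      rw [X_upp_ne hg θ 1 hu hb, X_upp_ne hg θ 1 hu hc]) g
  · intro A σ i hσ hinv
    have hp : 0 < p ^ i := pow_pos (Fact.out : p.Prime).pos _
    have hNS : NS ((γ : SL) : M₂) := by
      by_contra hn
      have h5 := comm_of_not_NS hn
      -- then `g` is central
      obtain ⟨k, hk⟩ := Subgroup.mem_zpowers_iff.1 (hγ ⟨g, self_mem_cent g⟩)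
      have h6 : (γ : SL) ^ k = g := congrArg Subtype.val hk
      have h7 : (γ : SL) ∈ Subgroup.center SL := by
        rw [Subgroup.mem_center_iff]
        intro x
        have := h5 x
        rw [mul_assoc, inv_mul_eq_iff_eq_mul] at this
        exact this.symm
      have h8 : g ∈ Subgroup.center SL := by
        rw [← h6]
        exact Subgroup.zpow_mem _ h7 _
      exact not_NS_of_mem_center h8 hg.NS
    have hEll : Ell ((γ : SL) : M₂) := ell_of_mem_cent hg γ.2 hNS
    have htr : tr ((γ : SL) : M₂) ^ 2 ≠ 4 := hEll.tr_ne.resolve_right h2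
    have h6 := inv_pow hσ (isIrr_isClassFunction hχ) hinv htr
    have h7 : NS (((γ : SL) ^ p ^ i : SL) : M₂) := by
      apply NS_of_tr
      rw [tr_pow, ← hσ, ← map_pow, ← map_ofNat σ 4]
      exact fun h => htr (σ.injective h)
    have h7' : X θ (1 : MulChar F ℂ) ((γ : SL) ^ p ^ i) =
        -((θ (γ ^ p ^ i) : ℂ) + (((θ (γ ^ p ^ i))⁻¹ : ℂˣ) : ℂ)) :=
      X_ell hg θ 1 (γ ^ p ^ i).2 h7
    have h8' : X θ (1 : MulChar F ℂ) (γ : SL) = -((θ γ : ℂ) + (((θ γ)⁻¹ : ℂˣ) : ℂ)) :=
      X_ell hg θ 1 γ.2 hNS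
    rw [hχX, hχX, h8', h7', neg_inj, map_pow] at h6
    exact dvd_of_add_inv hp h4 h6

end Cfsg.Agent.H579.RR
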